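import Mathlib

/-!
Bochert's commutator lemma: if the supports of two permutations meet in exactly one point,
their commutator is a 3-cycle.  (Package PB1 for S5713, requested by helper95.)
-/

namespace Cfsg.Agent.Lib.Helper96.Bochert

open Equiv

/-- If `σ.support ∩ τ.support = {α}`, then `σ τ σ⁻¹ τ⁻¹` is the product of the two
transpositions `(α, τ α)` and `(α, σ α)`. -/
theorem commutator_eq_swap_mul_swap {Ω : Type*} [Fintype Ω] [DecidableEq Ω]
    (σ τ : Equiv.Perm Ω) (α : Ω) (h : σ.support ∩ τ.support = {α}) :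
    σ * τ * σ⁻¹ * τ⁻¹ = swap α (τ α) * swap α (σ α) ∧ σ α ≠ α ∧ τ α ≠ α ∧ σ α ≠ τ α := by
  have hα : α ∈ σ.support ∩ τ.support := by rw [h]; exact Finset.mem_singleton_self α
  rw [Finset.mem_inter, Perm.mem_support, Perm.mem_support] at hα
  obtain ⟨hσα, hτα⟩ := hα
  have key : ∀ x, σ x ≠ x → τ x ≠ x → x = α := by
    intro x h1 h2
    have hx : x ∈ σ.support ∩ τ.support := by
      rw [Finset.mem_inter, Perm.mem_support, Perm.mem_support]; exact ⟨h1, h2⟩
    rw [h] at hx
    exact Finset.mem_singleton.mp hx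
  have hA : ∀ y, σ y ≠ y → y ≠ α → τ y = y := fun y hy hne =>
    by_contra (fun h' => hne (key y hy h'))
  have hB : ∀ y, τ y ≠ y → y ≠ α → σ y = y := fun y hy hne =>
    by_contra (fun h' => hne (key y h' hy))
  have h1 : τ (σ α) = σ α := hA (σ α) (fun e => hσα (σ.injective e)) hσα
  have h2 : σ (τ α) = τ α := hB (τ α) (fun e => hτα (τ.injective e)) hτα
  have hne : σ α ≠ τ α := by
    intro e
    have : τ (τ α) = τ α := by rw [← e]; exact h1
    exact hτα (τ.injective this)
  refine ⟨?_, hσα, hτα, hne⟩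
  have ai : ∀ (f : Perm Ω) (x : Ω), f (f⁻¹ x) = x := fun f x => f.apply_symm_apply x
  have ia : ∀ (f : Perm Ω) (x : Ω), f⁻¹ (f x) = x := fun f x => f.symm_apply_apply x
  ext x
  simp only [Perm.mul_apply]
  by_cases hx1 : x = α
  · subst hx1
    -- b = τ⁻¹ x
    have hb : τ (τ⁻¹ x) = x := ai τ x
    have hbne : τ⁻¹ x ≠ x := by
      intro e; rw [e] at hb; exact hτα hb
    have hbmoved : τ (τ⁻¹ x) ≠ τ⁻¹ x := by rw [hb]; exact fun e => hbne e.symm
    have hσb : σ (τ⁻¹ x) = τ⁻¹ x := hB _ hbmoved hbne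
    have hσinvb : σ⁻¹ (τ⁻¹ x) = τ⁻¹ x := by
      rw [Perm.inv_eq_iff_eq]; exact hσb.symm
    rw [hσinvb, hb, swap_apply_left, swap_apply_of_ne_of_ne hσα hne]
  · by_cases hx2 : x = σ α
    · subst hx2
      have e1 : τ⁻¹ (σ α) = σ α := by rw [Perm.inv_eq_iff_eq]; exact h1.symm
      rw [e1, ia, h2, swap_apply_right, swap_apply_left]
    · by_cases hx3 : x = τ α
      · subst hx3
        rw [ia]
        have ha : σ (σ⁻¹ α) = α := ai σ α
        have hane : σ⁻¹ α ≠ α := by
          intro e; rw [e] at ha; exact hσα ha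
        have hamoved : σ (σ⁻¹ α) ≠ σ⁻¹ α := by rw [ha]; exact fun e => hane e.symm
        have hτa : τ (σ⁻¹ α) = σ⁻¹ α := hA _ hamoved hane
        rw [hτa, ha, swap_apply_of_ne_of_ne hx1 hx2, swap_apply_right]
      · rw [swap_apply_of_ne_of_ne hx1 hx2, swap_apply_of_ne_of_ne hx1 hx3]
        have hy : τ (τ⁻¹ x) = x := ai τ x
        by_cases hty : τ⁻¹ x = x
        · rw [hty]
          have hw : σ (σ⁻¹ x) = x := ai σ x
          by_cases hsw : σ⁻¹ x = x
          · rw [hsw]
            have hτx : τ x = x := by rw [← hty]; rw [hy]; exact hty.symm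
            have hσx : σ x = x := by
              have := hw; rw [hsw] at this; exact this
            rw [hτx, hσx]
          · have hwne : σ⁻¹ x ≠ α := by
              intro e; rw [e] at hw; exact hx2 hw.symm
            have hwmoved : σ (σ⁻¹ x) ≠ σ⁻¹ x := by rw [hw]; exact fun e => hsw e.symm
            rw [hA _ hwmoved hwne, hw]
        · have hyne : τ⁻¹ x ≠ α := by
            intro e; rw [e] at hy; exact hx3 hy.symm
          have hymoved : τ (τ⁻¹ x) ≠ τ⁻¹ x := by rw [hy]; exact fun e => hty e.symm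
          have hσy : σ (τ⁻¹ x) = τ⁻¹ x := hB _ hymoved hyne
          have hσinvy : σ⁻¹ (τ⁻¹ x) = τ⁻¹ x := by
            rw [Perm.inv_eq_iff_eq]; exact hσy.symm
          rw [hσinvy, hy]
          have hxmoved : τ x ≠ x := by
            intro e
            apply hty
            have : τ x = τ (τ⁻¹ x) := by rw [hy]; exact e
            exact (τ.injective this).symm
          exact hB x hxmoved hx1

/-- **Bochert.** If the supports of `σ` and `τ` meet in exactly one point `α`, the commutator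
`σ τ σ⁻¹ τ⁻¹` is a 3-cycle (namely `α ↦ σ α ↦ τ α ↦ α`). -/
theorem isThreeCycle_commutator_of_support_inter {Ω : Type*} [Fintype Ω] [DecidableEq Ω]
    (σ τ : Equiv.Perm Ω) (α : Ω) (h : σ.support ∩ τ.support = {α}) :
    (σ * τ * σ⁻¹ * τ⁻¹).IsThreeCycle := by
  obtain ⟨e, hσα, hτα, hne⟩ := commutator_eq_swap_mul_swap σ τ α h
  rw [e]
  exact Perm.isThreeCycle_swap_mul_swap_same (Ne.symm hτα) (Ne.symm hσα) (Ne.symm hne)

end Cfsg.Agent.Lib.Helper96.Bochert
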