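import Mathlib

/-!
A counting lemma: a subset `A` of a transitive `H`-set `T` with `|A|² < |T|` has a translate
`h • A` disjoint from `A`.  (Package PB2 for S5713, requested by helper95.)
-/

namespace Cfsg.Agent.Lib.Helper96.Bochert

/-- In a finite group `H` acting on `X`, the number of `h` with `h • u = w` times the size of a
finite `H`-invariant transitive set `T ∋ u, w` is the order of `H`. -/
theorem card_fibre_mul_card {H X : Type*} [Group H] [Fintype H] [MulAction H X] [DecidableEq X]
    (T : Finset X) (hTinv : ∀ (h : H), ∀ u ∈ T, h • u ∈ T)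
    (htrans : ∀ u ∈ T, ∀ w ∈ T, ∃ h : H, h • u = w) (u w : X) (hu : u ∈ T) (hw : w ∈ T) :
    (Finset.univ.filter (fun h : H => h • u = w)).card * T.card = Fintype.card H := by
  classical
  obtain ⟨h0, hh0⟩ := htrans u hu w hw
  -- the fibre is in bijection with the stabilizer of `u`
  have h1 : (Finset.univ.filter (fun h : H => h • u = w)).card
      = Nat.card (MulAction.stabilizer H u) := by
    rw [Nat.card_eq_fintype_card, ← Fintype.card_subtype]
    apply Fintype.card_congr
    refine ⟨fun h => ⟨h0⁻¹ * h.1, ?_⟩, fun s => ⟨h0 * s.1, ?_⟩, ?_, ?_⟩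
    · rw [MulAction.mem_stabilizer_iff, mul_smul, h.2, ← hh0, inv_smul_smul]
    · rw [mul_smul, MulAction.mem_stabilizer_iff.mp s.2, hh0]
    · intro h; apply Subtype.ext; simp
    · intro s; apply Subtype.ext; simp
  -- the orbit of `u` is `T`
  have horb : MulAction.orbit H u = (T : Set X) := by
    ext x
    constructor
    · rintro ⟨h, rfl⟩; exact hTinv h u hu
    · intro hx
      obtain ⟨h, hh⟩ := htrans u hu x hx
      exact ⟨h, hh⟩
  have hfin : (MulAction.orbit H u).Finite := by rw [horb]; exact T.finite_toSet
  have : Fintype (MulAction.orbit H u) := hfin.fintype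
  have : Fintype (MulAction.stabilizer H u) := Fintype.ofFinite _
  have h2 : Fintype.card (MulAction.orbit H u) = T.card := by
    rw [← Nat.card_eq_fintype_card, horb]
    simp
  have h3 := MulAction.card_orbit_mul_card_stabilizer_eq_card_group H u
  rw [h1, Nat.card_eq_fintype_card, ← h2, mul_comm]
  exact h3

/-- If `A ⊆ T`, `T` is a finite `H`-invariant set on which `H` is transitive, and
`|A|² < |T|`, then some `h ∈ H` moves `A` off itself. -/
theorem exists_smul_disjoint {H X : Type*} [Group H] [Finite H] [MulAction H X] [DecidableEq X]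
    (T A : Finset X) (hAT : A ⊆ T) (hTinv : ∀ (h : H), ∀ u ∈ T, h • u ∈ T)
    (htrans : ∀ u ∈ T, ∀ w ∈ T, ∃ h : H, h • u = w) (hlt : A.card * A.card < T.card) :
    ∃ h : H, ∀ u ∈ A, h • u ∉ A := by
  classical
  have : Fintype H := Fintype.ofFinite H
  by_contra hcon
  push Not at hcon
  -- every `h` lies in one of the `|A|²` fibres
  have hcover : (Finset.univ : Finset H) ⊆
      (A ×ˢ A).biUnion (fun p => Finset.univ.filter (fun h : H => h • p.1 = p.2)) := by
    intro h _
    obtain ⟨u, hu, huA⟩ := hcon h
    rw [Finset.mem_biUnion]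
    exact ⟨(u, h • u), Finset.mem_product.mpr ⟨hu, huA⟩, by simp⟩
  have hle : Fintype.card H ≤
      ∑ p ∈ A ×ˢ A, (Finset.univ.filter (fun h : H => h • p.1 = p.2)).card := by
    calc Fintype.card H = (Finset.univ : Finset H).card := Finset.card_univ.symm
      _ ≤ _ := Finset.card_le_card hcover
      _ ≤ _ := Finset.card_biUnion_le
  -- multiply by `|T|`
  have hsum : (∑ p ∈ A ×ˢ A, (Finset.univ.filter (fun h : H => h • p.1 = p.2)).card) * T.card
      = (A.card * A.card) * Fintype.card H := by
    rw [Finset.sum_mul]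
    rw [Finset.sum_congr rfl (fun p hp => card_fibre_mul_card T hTinv htrans p.1 p.2
      (hAT (Finset.mem_product.mp hp).1) (hAT (Finset.mem_product.mp hp).2))]
    rw [Finset.sum_const, Finset.card_product, smul_eq_mul]
  have hpos : 0 < Fintype.card H := Fintype.card_pos
  have h1 : Fintype.card H * T.card ≤ (A.card * A.card) * Fintype.card H := by
    rw [← hsum]; exact Nat.mul_le_mul_right _ hle
  have h2 : T.card ≤ A.card * A.card := by
    rw [mul_comm (Fintype.card H)] at h1
    exact Nat.le_of_mul_le_mul_right h1 hpos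
  omega

end Cfsg.Agent.Lib.Helper96.Bochert
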